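import Mathlib

set_option autoImplicit false
set_option linter.unusedSectionVars false
set_option linter.style.haveILetI false

/-!
# The twisted group algebra of an elementary abelian 2-group over `ZMod 3`

For a bilinear form `β` on a finite `ZMod 2`-vector space `V` we realise the twisted group algebra
`(ZMod 3)^β[V]` inside `Matrix V V (ZMod 3)` by its left regular representation `L β u`; the right
regular representation `Rt β u` generates its commutant.  (helper90, for S3084.)
-/

namespace Cfsg.Agent.Helper90.Clif

/-- The sign `(-1)^a` in `ZMod 3`. -/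
def sg (a : ZMod 2) : ZMod 3 := if a = 0 then 1 else -1

theorem sg_add (a b : ZMod 2) : sg (a + b) = sg a * sg b := by revert a b; decide
theorem sg_zero : sg 0 = 1 := rfl
theorem sg_mul_self (a : ZMod 2) : sg a * sg a = 1 := by revert a; decide
theorem sg_ne_zero (a : ZMod 2) : sg a ≠ 0 := by revert a; decide
theorem sg_inj {a b : ZMod 2} (h : sg a = sg b) : a = b := by revert a b; decide
theorem exists_sg_of_ne_zero (c : ZMod 3) (h : c ≠ 0) : ∃ a, c = sg a := by revert c; decide
theorem sg_eq_one_iff (a : ZMod 2) : sg a = 1 ↔ a = 0 := by revert a; decide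
theorem zmod3_eq_zero_of_eq_neg (x : ZMod 3) (h : x = -x) : x = 0 := by revert x; decide
theorem sg_add_one (a : ZMod 2) : sg (a + 1) = - sg a := by revert a; decide
theorem zmod2_eq_one_of_ne_zero (a : ZMod 2) (h : a ≠ 0) : a = 1 := by revert a; decide
theorem zmod2_add_eq_zero_iff (a b : ZMod 2) : a + b = 0 ↔ a = b := by revert a b; decide
theorem sg_cases (a : ZMod 2) : sg a = 1 ∨ sg a = -1 := by revert a; decide
theorem sg_one : sg 1 = -1 := rfl

variable {V : Type*} [AddCommGroup V] [Module (ZMod 2) V] [Fintype V] [DecidableEq V]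
variable (β : V →ₗ[ZMod 2] V →ₗ[ZMod 2] ZMod 2)

theorem add_self_v (x : V) : x + x = 0 := ZModModule.add_self x

/-- Left multiplication operators of the twisted group algebra. -/
def L (u : V) : Matrix V V (ZMod 3) :=
  Matrix.of fun w v => if w = u + v then sg (β u v) else 0

/-- Right multiplication operators of the twisted group algebra. -/
def Rt (u : V) : Matrix V V (ZMod 3) :=
  Matrix.of fun w v => if w = v + u then sg (β v u) else 0

theorem L_mul_apply (u : V) (X : Matrix V V (ZMod 3)) (w v : V) :
    (L β u * X) w v = sg (β u (w + u)) * X (w + u) v := by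
  rw [Matrix.mul_apply, Finset.sum_eq_single (w + u)]
  · have h : w = u + (w + u) := by
      have := add_self_v u
      linear_combination (norm := module) -this
    simp [L, ← h]
  · intro t _ ht
    have h : w ≠ u + t := by
      intro h; apply ht; rw [h]
      have := add_self_v u
      linear_combination (norm := module) -this
    simp [L, h]
  · intro h; exact absurd (Finset.mem_univ _) h

theorem mul_L_apply (u : V) (X : Matrix V V (ZMod 3)) (w v : V) :
    (X * L β u) w v = X w (u + v) * sg (β u v) := by
  rw [Matrix.mul_apply, Finset.sum_eq_single (u + v)]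
  · simp [L]
  · intro t _ ht
    simp [L, ht]
  · intro h; exact absurd (Finset.mem_univ _) h

theorem Rt_mul_apply (u : V) (X : Matrix V V (ZMod 3)) (w v : V) :
    (Rt β u * X) w v = sg (β (w + u) u) * X (w + u) v := by
  rw [Matrix.mul_apply, Finset.sum_eq_single (w + u)]
  · have h : w = w + u + u := by
      have := add_self_v u
      linear_combination (norm := module) -this
    simp [Rt, ← h]
  · intro t _ ht
    have h : w ≠ t + u := by
      intro h; apply ht; rw [h]
      have := add_self_v u
      linear_combination (norm := module) -this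
    simp [Rt, h]
  · intro h; exact absurd (Finset.mem_univ _) h

theorem mul_Rt_apply (u : V) (X : Matrix V V (ZMod 3)) (w v : V) :
    (X * Rt β u) w v = X w (v + u) * sg (β v u) := by
  rw [Matrix.mul_apply, Finset.sum_eq_single (v + u)]
  · simp [Rt]
  · intro t _ ht
    simp [Rt, ht]
  · intro h; exact absurd (Finset.mem_univ _) h

theorem L_mul_L (u v : V) : L β u * L β v = sg (β u v) • L β (u + v) := by
  ext w t
  rw [L_mul_apply, Matrix.smul_apply, smul_eq_mul]
  simp only [L, Matrix.of_apply]
  by_cases h : w = u + v + t
  · have h1 : w + u = v + t := by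
      rw [h]
      have := add_self_v u
      linear_combination (norm := module) this
    rw [if_pos h1, if_pos h, h1]
    simp only [map_add, LinearMap.add_apply, sg_add]
    ring
  · have h1 : ¬ (w + u = v + t) := by
      intro h'; apply h
      have := add_self_v u
      linear_combination (norm := module) h' - this
    rw [if_neg h1, if_neg h, mul_zero, mul_zero]

theorem L_zero : L β 0 = 1 := by
  ext w v
  simp [L, Matrix.one_apply, sg_zero]

theorem L_mul_Rt (u v : V) : L β u * Rt β v = Rt β v * L β u := by
  ext w t
  rw [L_mul_apply, Rt_mul_apply]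
  simp only [L, Rt, Matrix.of_apply]
  by_cases h : w = t + u + v
  · have h1 : w + u = t + v := by
      rw [h]
      have := add_self_v u
      linear_combination (norm := module) this
    have h2 : w + v = u + t := by
      rw [h]
      have := add_self_v v
      linear_combination (norm := module) this
    rw [if_pos h1, if_pos h2, h1, h2]
    simp only [map_add, LinearMap.add_apply, sg_add]
    ring
  · have h1 : ¬ (w + u = t + v) := by
      intro h'; apply h
      have := add_self_v u
      linear_combination (norm := module) h' - this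
    have h2 : ¬ (w + v = u + t) := by
      intro h'; apply h
      have := add_self_v v
      linear_combination (norm := module) h' - this
    rw [if_neg h1, if_neg h2, mul_zero, mul_zero]

theorem entry_of_comm (X : Matrix V V (ZMod 3)) (hX : ∀ u, X * Rt β u = Rt β u * X) (w t : V) :
    X w t = sg (β (w + t) t) * X (w + t) 0 := by
  have h := congrFun (congrFun (hX t) w) 0
  rw [mul_Rt_apply, Rt_mul_apply] at h
  simpa [sg_zero] using h

theorem eq_sum_of_comm (X : Matrix V V (ZMod 3)) (hX : ∀ u, X * Rt β u = Rt β u * X) :
    X = ∑ v, X v 0 • L β v := by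
  ext w t
  rw [entry_of_comm β X hX w t, Matrix.sum_apply, Finset.sum_eq_single (w + t)]
  · have h : w = w + t + t := by
      have := add_self_v t
      linear_combination (norm := module) -this
    rw [Matrix.smul_apply, smul_eq_mul, L, Matrix.of_apply, if_pos h, mul_comm]
  · intro v _ hv
    have h : w ≠ v + t := by
      intro h; apply hv; rw [h]
      have := add_self_v t
      linear_combination (norm := module) -this
    rw [Matrix.smul_apply, smul_eq_mul, L, Matrix.of_apply, if_neg h, mul_zero]
  · intro h; exact absurd (Finset.mem_univ _) h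

theorem L_apply_zero (v w : V) : L β v w 0 = if w = v then 1 else 0 := by
  simp [L, sg_zero]

theorem coef_rel (g : Matrix V V (ZMod 3)) (hR : ∀ u, g * Rt β u = Rt β u * g) (u : V)
    (a : ZMod 3) (h : g * L β u = a • (L β u * g)) (v : V) :
    sg (β v u) * g v 0 = a * (sg (β u v) * g v 0) := by
  have h1 := congrFun (congrFun h (v + u)) 0
  rw [mul_L_apply, Matrix.smul_apply, L_mul_apply, smul_eq_mul,
    entry_of_comm β g hR (v + u) (u + 0)] at h1
  have h2 : v + u + (u + 0) = v := by
    have := add_self_v u
    linear_combination (norm := module) this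
  have h3 : v + u + u = v := by
    have := add_self_v u
    linear_combination (norm := module) this
  rw [h2, h3] at h1
  simpa [sg_zero] using h1

theorem eq_smul_L_of_comm (hnd : ∀ w : V, (∀ u, β u w + β w u = 0) → w = 0)
    (g : Matrix V V (ZMod 3)) (hg0 : g ≠ 0) (hR : ∀ u, g * Rt β u = Rt β u * g)
    (hL : ∀ u, ∃ a : ZMod 3, g * L β u = a • (L β u * g)) :
    ∃ w, ∃ c : ZMod 3, c ≠ 0 ∧ g = c • L β w := by
  have hsum := eq_sum_of_comm β g hR
  have hex : ∃ w, g w 0 ≠ 0 := by
    by_contra hcon
    push Not at hcon
    apply hg0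
    rw [hsum]
    exact Finset.sum_eq_zero fun v _ => by rw [hcon v, zero_smul]
  obtain ⟨w, hw⟩ := hex
  refine ⟨w, g w 0, hw, ?_⟩
  have huniq : ∀ v, g v 0 ≠ 0 → v = w := by
    intro v hv
    have h0 : v + w = 0 := by
      apply hnd
      intro u
      obtain ⟨a, ha⟩ := hL u
      have e1 := coef_rel β g hR u a ha v
      have e2 := coef_rel β g hR u a ha w
      have e1' : sg (β v u) = a * sg (β u v) :=
        mul_right_cancel₀ hv (by rw [e1]; ring)
      have e2' : sg (β w u) = a * sg (β u w) :=
        mul_right_cancel₀ hw (by rw [e2]; ring)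
      have e3 : sg (β v u + β u w) = sg (β u v + β w u) := by
        rw [sg_add, sg_add, e1', e2']; ring
      have e4 := sg_inj e3
      simp only [map_add, LinearMap.add_apply]
      have e5 := (zmod2_add_eq_zero_iff _ _).mpr e4
      rw [← e5]; ring
    have := add_self_v w
    linear_combination (norm := module) h0 - this
  conv_lhs => rw [hsum]
  rw [Finset.sum_eq_single w]
  · intro v _ hv
    have : g v 0 = 0 := by
      by_contra h; exact hv (huniq v h)
    rw [this, zero_smul]
  · intro h; exact absurd (Finset.mem_univ _) h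

theorem sum_sg (hnd : ∀ w : V, (∀ u, β u w + β w u = 0) → w = 0) (w : V) :
    ∑ u : V, sg (β u w + β w u) = if w = 0 then (Fintype.card V : ZMod 3) else 0 := by
  split_ifs with h
  · subst h
    simp [sg_zero]
  · have hex : ∃ u₀, β u₀ w + β w u₀ ≠ 0 := by
      by_contra hcon
      push Not at hcon
      exact h (hnd w hcon)
    obtain ⟨u₀, hu₀⟩ := hex
    have h1 := zmod2_eq_one_of_ne_zero _ hu₀
    apply zmod3_eq_zero_of_eq_neg
    rw [← Finset.sum_neg_distrib]
    refine Fintype.sum_equiv (Equiv.addRight u₀) _ _ (fun u => ?_)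
    simp only [Equiv.coe_addRight, map_add, LinearMap.add_apply]
    have h2 : β u w + β u₀ w + (β w u + β w u₀) = (β u w + β w u) + 1 := by
      rw [← h1]; ring
    rw [h2, sg_add_one, neg_neg]

theorem L_mul_L_comm (u w : V) :
    L β u * L β w = sg (β u w + β w u) • (L β w * L β u) := by
  rw [L_mul_L, L_mul_L, smul_smul, add_comm w u, sg_add, mul_assoc, sg_mul_self, mul_one]

/-- The inverse of `L β u`. -/
def Li (u : V) : Matrix V V (ZMod 3) := sg (β u u) • L β u

theorem L_mul_self (u : V) : L β u * L β u = sg (β u u) • (1 : Matrix V V (ZMod 3)) := by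
  rw [L_mul_L, add_self_v, L_zero]

theorem L_mul_Li (u : V) : L β u * Li β u = 1 := by
  rw [Li, Matrix.mul_smul, L_mul_self, smul_smul, sg_mul_self, one_smul]

theorem Li_mul_L (u : V) : Li β u * L β u = 1 := by
  rw [Li, Matrix.smul_mul, L_mul_self, smul_smul, sg_mul_self, one_smul]

theorem Li_zero : Li β (0 : V) = 1 := by
  rw [Li, L_zero, map_zero, sg_zero, one_smul]

theorem Li_add_mul_L (v u : V) : Li β (v + u) * L β v = sg (β v u) • Li β u := by
  have h : v + u + v = u := by
    have := add_self_v v
    linear_combination (norm := module) this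
  rw [Li, Li, Matrix.smul_mul, L_mul_L, h, smul_smul, smul_smul]
  congr 1
  simp only [map_add, LinearMap.add_apply, sg_add]
  have h1 := sg_mul_self (β v v)
  have h2 := sg_mul_self (β u v)
  grind

theorem L_conj (u w : V) : L β u * L β w * Li β u = sg (β u w + β w u) • L β w := by
  rw [L_mul_L_comm, Matrix.smul_mul, mul_assoc, L_mul_Li, mul_one]

theorem L_conj_Li (u w : V) : L β u * Li β w * Li β u = sg (β u w + β w u) • Li β w := by
  rw [Li, Matrix.mul_smul, Matrix.smul_mul, L_conj, smul_smul, smul_smul, mul_comm]

theorem L_comm_Rt (u v : V) : Commute (L β u) (Rt β v) := L_mul_Rt β u v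

theorem Li_comm_Rt (u v : V) : Commute (Li β u) (Rt β v) :=
  (L_comm_Rt β u v).smul_left _

/-- Averaging over conjugation by the `L u` projects the commutant of the `Rt` onto scalars. -/
theorem avg_conj (hnd : ∀ w : V, (∀ u, β u w + β w u = 0) → w = 0)
    (Y : Matrix V V (ZMod 3)) (hY : ∀ u, Y * Rt β u = Rt β u * Y) :
    ∑ u, L β u * Y * Li β u = ((Fintype.card V : ZMod 3) * Y 0 0) • (1 : Matrix V V (ZMod 3)) := by
  have h1 : ∀ u, L β u * Y * Li β u = ∑ w, (Y w 0 * sg (β u w + β w u)) • L β w := by
    intro u
    conv_lhs => rw [eq_sum_of_comm β Y hY]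
    rw [Finset.mul_sum, Finset.sum_mul]
    refine Finset.sum_congr rfl fun w _ => ?_
    rw [Matrix.mul_smul, Matrix.smul_mul, L_conj, smul_smul]
  simp only [h1]
  rw [Finset.sum_comm]
  have h2 : ∀ w, ∑ u, (Y w 0 * sg (β u w + β w u)) • L β w =
      (Y w 0 * if w = 0 then (Fintype.card V : ZMod 3) else 0) • L β w := by
    intro w
    rw [← Finset.sum_smul, ← Finset.mul_sum, sum_sg β hnd]
  simp only [h2]
  rw [Finset.sum_eq_single 0]
  · rw [if_pos rfl, L_zero, mul_comm]
  · intro w _ hw
    rw [if_neg hw, mul_zero, zero_smul]
  · intro h; exact absurd (Finset.mem_univ _) h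

end Cfsg.Agent.Helper90.Clif
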