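import Mathlib
import Cfsg.Agent.Helper90.ClifAlg

set_option autoImplicit false
set_option linter.unusedSectionVars false
set_option linter.style.haveILetI false

/-!
# Lifting isometries to the twisted group algebra (Skolem–Noether by averaging)

(helper90, for S3084.)
-/

namespace Cfsg.Agent.Helper90.Clif

variable {V : Type*} [AddCommGroup V] [Module (ZMod 2) V] [Fintype V] [DecidableEq V]
variable (β : V →ₗ[ZMod 2] V →ₗ[ZMod 2] ZMod 2)

/-- An alternating bilinear form over `ZMod 2` is the polar form of a quadratic map. -/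
theorem exists_quad (γ : V →ₗ[ZMod 2] V →ₗ[ZMod 2] ZMod 2) (hγ : ∀ u, γ u u = 0) :
    ∃ f : V → ZMod 2, ∀ u v, f (u + v) = f u + f v + γ u v := by
  classical
  let b := Module.finBasis (ZMod 2) V
  have hsymm : ∀ u v, γ u v = γ v u := by
    intro u v
    have h := hγ (u + v)
    simp only [map_add, LinearMap.add_apply, hγ u, hγ v] at h
    grind
  let N : Matrix (Fin (Module.finrank (ZMod 2) V)) (Fin (Module.finrank (ZMod 2) V)) (ZMod 2) :=
    Matrix.of fun i j => if i < j then γ (b i) (b j) else 0
  let δ := Matrix.toLinearMap₂ b b N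
  have hδb : ∀ i j, δ (b i) (b j) = N i j := by
    intro i j
    rw [← LinearMap.toMatrix₂_apply b b δ i j, LinearMap.toMatrix₂_toLinearMap₂]
  have hδ : δ + δ.flip = γ := by
    apply LinearMap.ext_basis b b
    intro i j
    rw [LinearMap.add_apply, LinearMap.add_apply, LinearMap.flip_apply, hδb, hδb]
    simp only [N, Matrix.of_apply]
    rcases lt_trichotomy i j with h | h | h
    · rw [if_pos h, if_neg (not_lt.mpr h.le), add_zero]
    · subst h; simp [hγ]
    · rw [if_neg (not_lt.mpr h.le), if_pos h, zero_add]; exact hsymm _ _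
  refine ⟨fun u => δ u u, fun u v => ?_⟩
  have h1 : γ u v = δ u v + δ v u := by
    rw [← hδ]; rfl
  simp only [map_add, LinearMap.add_apply, h1]
  ring

/-- Every isometry `σ` of the quadratic form `u ↦ β u u` is induced by conjugation with an
invertible element of the twisted group algebra (the commutant of the `Rt`). -/
theorem exists_lift (hnd : ∀ w : V, (∀ u, β u w + β w u = 0) → w = 0)
    (hV : (Fintype.card V : ZMod 3) ≠ 0) (σ : V →ₗ[ZMod 2] V) (hbij : Function.Bijective σ)
    (hσ : ∀ u, β (σ u) (σ u) = β u u) :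
    ∃ g g' : Matrix V V (ZMod 3), g * g' = 1 ∧ (∀ u, g * Rt β u = Rt β u * g) ∧
      ∀ u, ∃ a : ZMod 2, g * L β u = sg a • (L β (σ u) * g) := by
  obtain ⟨f, hf⟩ := exists_quad (β.compl₁₂ σ σ + β) (by
    intro u
    rw [LinearMap.add_apply, LinearMap.add_apply, LinearMap.compl₁₂_apply, hσ]
    exact CharTwo.add_self_eq_zero _)
  have hf' : ∀ u v, f (u + v) = f u + f v + (β (σ u) (σ v) + β u v) := by
    intro u v; rw [hf]; rfl
  have hf0 : f 0 = 0 := by
    have h := hf' 0 0
    simp only [add_zero, map_zero] at h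
    grind
  set α : V → Matrix V V (ZMod 3) := fun u => sg (f u) • L β (σ u) with hα_def
  set αi : V → Matrix V V (ZMod 3) := fun u => sg (f u) • Li β (σ u) with hαi_def
  have hα : ∀ v u, α v * α u = sg (β v u) • α (v + u) := by
    intro v u
    simp only [hα_def]
    rw [Matrix.smul_mul, Matrix.mul_smul, L_mul_L, smul_smul, smul_smul, smul_smul, map_add, hf']
    congr 1
    simp only [sg_add]
    have h1 := sg_mul_self (β v u)
    grind
  have hαR : ∀ u v, Commute (α u) (Rt β v) := fun u v => (L_comm_Rt β (σ u) v).smul_left _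
  set g : V → Matrix V V (ZMod 3) := fun c => ∑ u, α u * L β c * Li β u with hg_def
  have claim1 : ∀ c v, α v * g c = g c * L β v := by
    intro c v
    simp only [hg_def, Finset.mul_sum, Finset.sum_mul]
    refine Fintype.sum_equiv (Equiv.addLeft v) _ _ (fun u => ?_)
    simp only [Equiv.coe_addLeft]
    rw [mul_assoc (α (v + u) * L β c), Li_add_mul_L, ← mul_assoc, ← mul_assoc, hα,
      Matrix.mul_smul, Matrix.smul_mul, Matrix.smul_mul]
  have claim2 : ∀ c u, g c * Rt β u = Rt β u * g c := by
    intro c u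
    have h : Commute (g c) (Rt β u) := by
      simp only [hg_def]
      exact Commute.sum_left _ _ _ fun v _ =>
        ((hαR v u).mul_left (L_comm_Rt β c u)).mul_left (Li_comm_Rt β v u)
    exact h
  have hY : ∀ c, g c * Li β c = ∑ u, sg (β c u + β u c) • (α u * Li β u) := by
    intro c
    simp only [hg_def, Finset.sum_mul]
    refine Finset.sum_congr rfl fun u _ => ?_
    rw [mul_assoc, mul_assoc, ← mul_assoc (L β c), L_conj_Li, Matrix.mul_smul]
  have claim3 : ∑ c, g c * Li β c = (Fintype.card V : ZMod 3) • (1 : Matrix V V (ZMod 3)) := by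
    simp only [hY]
    rw [Finset.sum_comm]
    have h2 : ∀ u, ∑ c, sg (β c u + β u c) • (α u * Li β u) =
        (if u = 0 then (Fintype.card V : ZMod 3) else 0) • (α u * Li β u) := by
      intro u
      rw [← Finset.sum_smul, sum_sg β hnd]
    simp only [h2]
    rw [Finset.sum_eq_single 0]
    · rw [if_pos rfl]
      simp only [hα_def]
      rw [hf0, map_zero, sg_zero, one_smul, L_zero, Li_zero, mul_one]
    · intro w _ hw
      rw [if_neg hw, zero_smul]
    · intro h; exact absurd (Finset.mem_univ _) h
  have hex : ∃ c, (g c * Li β c) 0 0 ≠ 0 := by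
    by_contra hcon
    push Not at hcon
    have h := congrFun (congrFun claim3 0) 0
    rw [Matrix.sum_apply, Finset.sum_eq_zero (fun c _ => hcon c)] at h
    apply hV
    simpa using h.symm
  obtain ⟨c, hc⟩ := hex
  set g' : Matrix V V (ZMod 3) := ∑ u, L β u * Li β c * αi u with hg'_def
  have claim4 : g c * g' =
      ((Fintype.card V : ZMod 3) * (g c * Li β c) 0 0) • (1 : Matrix V V (ZMod 3)) := by
    rw [← avg_conj β hnd (g c * Li β c) (fun u =>
      ((show Commute (g c) (Rt β u) from claim2 c u).mul_left (Li_comm_Rt β c u)))]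
    simp only [hg'_def, Finset.mul_sum]
    refine Fintype.sum_equiv (Equiv.ofBijective σ hbij) _ _ (fun u => ?_)
    rw [Equiv.ofBijective_apply, ← mul_assoc, ← mul_assoc, ← claim1]
    simp only [hα_def, hαi_def]
    rw [Matrix.smul_mul, Matrix.smul_mul, Matrix.smul_mul, Matrix.mul_smul, smul_smul,
      sg_mul_self, one_smul]
    simp only [mul_assoc]
  have hd : (Fintype.card V : ZMod 3) * (g c * Li β c) 0 0 ≠ 0 := mul_ne_zero hV hc
  refine ⟨g c, ((Fintype.card V : ZMod 3) * (g c * Li β c) 0 0)⁻¹ • g', ?_, claim2 c,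
    fun u => ⟨f u, ?_⟩⟩
  · rw [Matrix.mul_smul, claim4, smul_smul, inv_mul_cancel₀ hd, one_smul]
  · rw [← claim1]
    simp only [hα_def]
    rw [Matrix.smul_mul]

end Cfsg.Agent.Helper90.Clif
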