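import Mathlib
import Cfsg.Prelude.Def_Transfer
import Cfsg.Agent.Helper90.ClifLift
import Cfsg.Agent.Helper2.PGroup
import Cfsg.Agent.Helper47.Coprime

set_option autoImplicit false
set_option linter.unusedSectionVars false
set_option linter.style.haveILetI false

/-!
# The group `2^{1+2n}.K` inside the units of the twisted group algebra

(helper90, for S3084.)
-/

namespace Cfsg.Agent.Helper90.Clif

open scoped commutatorElement

/-- Elementwise criterion for a finite group to be an extraspecial 2-group. -/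
theorem isExtraspecial_two_of_elem {P : Type*} [Group P] [Finite P] (z : P) (hz1 : z ≠ 1)
    (hcenter : ∀ c : P, c ∈ Subgroup.center P ↔ c = 1 ∨ c = z)
    (hsq : ∀ x : P, x * x = 1 ∨ x * x = z)
    (hcomm : ∀ x y : P, x * y = y * x ∨ x * y = z * (y * x))
    (hnonab : ∃ x y : P, x * y ≠ y * x) : Cfsg.IsExtraspecial 2 P := by
  have hp : Fact (Nat.Prime 2) := ⟨Nat.prime_two⟩
  have hzz : z * z = 1 := by
    rcases hsq z with h | h
    · exact h
    · exfalso; apply hz1
      have h2 := congrArg (· * z⁻¹) h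
      simpa using h2
  have hP2 : IsPGroup 2 P := by
    intro x
    refine ⟨2, ?_⟩
    have h4 : x ^ (2 ^ 2) = (x * x) * (x * x) := by
      show x ^ 4 = _
      rw [show (4 : ℕ) = 2 + 2 from rfl, pow_add, pow_two]
    rw [h4]
    rcases hsq x with h | h
    · rw [h, one_mul]
    · rw [h, hzz]
  have hcommel : ∀ x y : P, ⁅x, y⁆ = 1 ∨ ⁅x, y⁆ = z := by
    intro x y
    rw [commutatorElement_def]
    rcases hcomm x y with h | h
    · left; rw [h]; simp [mul_assoc]
    · right; rw [h]; simp [mul_assoc]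
  have hcomm_le : commutator P ≤ Subgroup.center P := by
    rw [commutator_eq_closure, Subgroup.closure_le]
    rintro c ⟨x, y, rfl⟩
    rw [SetLike.mem_coe, hcenter]
    exact hcommel x y
  have hz_comm : z ∈ commutator P := by
    obtain ⟨x, y, hne⟩ := hnonab
    have h1 : ⁅x, y⁆ = z := by
      rcases hcommel x y with h | h
      · exfalso; apply hne; exact commutatorElement_eq_one_iff_mul_comm.mp h
      · exact h
    rw [← h1]
    exact Subgroup.commutator_mem_commutator (Subgroup.mem_top _) (Subgroup.mem_top _)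
  have hcomm_eq : commutator P = Subgroup.center P := by
    apply le_antisymm hcomm_le
    intro c hc
    rcases (hcenter c).mp hc with h1 | h1
    · rw [h1]; exact Subgroup.one_mem _
    · rw [h1]; exact hz_comm
  have hfr : frattini P = Subgroup.center P := by
    apply le_antisymm
    · have h1 := Cfsg.Agent.Helper47.frattini_le_ker 2
        (Abelianization.of : P →* Abelianization P) (by
          intro x
          rw [← map_pow, ← MonoidHom.mem_ker, Abelianization.ker_of, hcomm_eq, hcenter, pow_two]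
          exact hsq x)
      rw [Abelianization.ker_of, hcomm_eq] at h1
      exact h1
    · rw [← hcomm_eq]
      exact Cfsg.Agent.Helper2.commutator_le_frattini_of_isPGroup hP2
  refine ⟨⟨hP2, hfr, hcomm_eq⟩, ?_⟩
  rw [Nat.card_eq_two_iff]
  refine ⟨⟨1, Subgroup.one_mem _⟩, ⟨z, (hcenter _).mpr (Or.inr rfl)⟩, ?_, ?_⟩
  · intro hh
    exact hz1 (congrArg Subtype.val hh).symm
  · ext c
    simp only [Set.mem_insert_iff, Set.mem_singleton_iff, Set.mem_univ, iff_true]
    rcases (hcenter c.1).mp c.2 with h1 | h1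
    · left; exact Subtype.ext h1
    · right; exact Subtype.ext h1

/-- Every finite group has a copy living in `Type`. -/
theorem exists_small_copy (G : Type*) [Group G] [Finite G] :
    ∃ (R : Type) (_ : Group R) (_ : Finite R), Nonempty (R ≃* G) := by
  let e : Fin (Nat.card G) ≃ G := (Finite.equivFin G).symm
  letI : Group (Fin (Nat.card G)) := e.group
  exact ⟨Fin (Nat.card G), e.group, inferInstance, ⟨e.mulEquiv⟩⟩

variable {V : Type*} [AddCommGroup V] [Module (ZMod 2) V] [Fintype V] [DecidableEq V]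
variable (β : V →ₗ[ZMod 2] V →ₗ[ZMod 2] ZMod 2)
variable {K : Type*} [Group K] (ρ : Representation (ZMod 2) K V)

theorem unit_conj {g : (Matrix V V (ZMod 3))ˣ} {X Y : Matrix V V (ZMod 3)}
    (h : (g : Matrix V V (ZMod 3)) * X = Y * g) :
    (↑g⁻¹ : Matrix V V (ZMod 3)) * Y = X * (↑g⁻¹ : Matrix V V (ZMod 3)) := by
  rw [Units.inv_mul_eq_iff_eq_mul, ← mul_assoc, Units.eq_mul_inv_iff_mul_eq, h]

/-- The unit `sg a • L β w`. -/
def lu (a : ZMod 2) (w : V) : (Matrix V V (ZMod 3))ˣ where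
  val := sg a • L β w
  inv := sg a • Li β w
  val_inv := by
    rw [Matrix.smul_mul, Matrix.mul_smul, L_mul_Li, smul_smul, sg_mul_self, one_smul]
  inv_val := by
    rw [Matrix.smul_mul, Matrix.mul_smul, Li_mul_L, smul_smul, sg_mul_self, one_smul]

theorem smul_L_inj {a a' : ZMod 2} {w w' : V} (h : sg a • L β w = sg a' • L β w') :
    w = w' ∧ a = a' := by
  have h1 := congrFun (congrFun h w) 0
  rw [Matrix.smul_apply, Matrix.smul_apply, L_apply_zero, L_apply_zero, if_pos rfl, smul_eq_mul,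
    smul_eq_mul, mul_one] at h1
  have hw : w = w' := by
    by_contra hne
    rw [if_neg hne, mul_zero] at h1
    exact sg_ne_zero a h1
  refine ⟨hw, ?_⟩
  rw [if_pos hw, mul_one] at h1
  exact sg_inj h1

/-- The group of pairs `(k, g)` with `g` a unit of the twisted group algebra inducing `ρ k`. -/
def liftGroup : Subgroup (K × (Matrix V V (ZMod 3))ˣ) where
  carrier := {p | (∀ u, (p.2 : Matrix V V (ZMod 3)) * Rt β u = Rt β u * p.2) ∧
      ∀ u, ∃ a : ZMod 2, (p.2 : Matrix V V (ZMod 3)) * L β u = sg a • (L β (ρ p.1 u) * p.2)}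
  one_mem' := by
    refine ⟨fun u => by simp, fun u => ⟨0, by simp [sg_zero]⟩⟩
  mul_mem' := by
    rintro p p' ⟨h1, h2⟩ ⟨h1', h2'⟩
    refine ⟨fun u => ?_, fun u => ?_⟩
    · simp only [Prod.snd_mul, Units.val_mul]
      rw [mul_assoc, h1', ← mul_assoc, h1, mul_assoc]
    · obtain ⟨a', ha'⟩ := h2' u
      obtain ⟨a, ha⟩ := h2 (ρ p'.1 u)
      refine ⟨a + a', ?_⟩
      simp only [Prod.snd_mul, Units.val_mul, Prod.fst_mul, map_mul, Module.End.mul_apply]
      rw [mul_assoc, ha', Matrix.mul_smul, ← mul_assoc, ha, Matrix.smul_mul, smul_smul,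
        mul_assoc, sg_add, mul_comm]
  inv_mem' := by
    rintro p ⟨h1, h2⟩
    refine ⟨fun u => ?_, fun u => ?_⟩
    · simp only [Prod.snd_inv]
      exact unit_conj (h1 u)
    · obtain ⟨a, ha⟩ := h2 (ρ p.1⁻¹ u)
      have hu : ρ p.1 (ρ p.1⁻¹ u) = u := by
        rw [← Module.End.mul_apply, ← map_mul, mul_inv_cancel, map_one, Module.End.one_apply]
      rw [hu] at ha
      refine ⟨a, ?_⟩
      simp only [Prod.snd_inv, Prod.fst_inv]
      rw [← unit_conj (X := L β (ρ p.1⁻¹ u)) (Y := sg a • L β u) (by rw [ha, Matrix.smul_mul]),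
        Matrix.mul_smul, smul_smul, sg_mul_self, one_smul]

/-- An abstract copy `R` of the group of pairs. -/
structure Model (R : Type*) [Group R] where
  /-- projection to `K` -/
  θ : R →* K
  /-- projection to the units of the matrix algebra -/
  μ : R →* (Matrix V V (ZMod 3))ˣ
  inj : ∀ r, θ r = 1 → μ r = 1 → r = 1
  commR : ∀ r u, ((μ r : (Matrix V V (ZMod 3))ˣ) : Matrix V V (ZMod 3)) * Rt β u =
    Rt β u * (μ r : (Matrix V V (ZMod 3))ˣ)
  rel : ∀ r u, ∃ a : ZMod 2, ((μ r : (Matrix V V (ZMod 3))ˣ) : Matrix V V (ZMod 3)) * L β u =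
    sg a • (L β (ρ (θ r) u) * (μ r : (Matrix V V (ZMod 3))ˣ))
  full : ∀ (k : K) (g : (Matrix V V (ZMod 3))ˣ),
    (∀ u, (g : Matrix V V (ZMod 3)) * Rt β u = Rt β u * g) →
    (∀ u, ∃ a : ZMod 2, (g : Matrix V V (ZMod 3)) * L β u = sg a • (L β (ρ k u) * g)) →
    ∃ r, θ r = k ∧ μ r = g

theorem exists_model [Finite K] :
    ∃ (R : Type) (_ : Group R) (_ : Finite R), Nonempty (Model β ρ R) := by
  obtain ⟨R, hG, hF, ⟨φ⟩⟩ := exists_small_copy ↥(liftGroup β ρ)
  refine ⟨R, hG, hF, ⟨?_⟩⟩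
  exact
    { θ := (MonoidHom.fst K _).comp ((liftGroup β ρ).subtype.comp φ.toMonoidHom)
      μ := (MonoidHom.snd K _).comp ((liftGroup β ρ).subtype.comp φ.toMonoidHom)
      inj := by
        intro r h1 h2
        have h3 : (φ r : K × (Matrix V V (ZMod 3))ˣ) = 1 := Prod.ext h1 h2
        have h4 : φ r = 1 := Subtype.ext h3
        exact (MulEquiv.map_eq_one_iff φ).mp h4
      commR := fun r u => (φ r).2.1 u
      rel := fun r u => (φ r).2.2 u
      full := by
        intro k g h1 h2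
        refine ⟨φ.symm ⟨(k, g), h1, h2⟩, ?_, ?_⟩
        · simp
        · simp }

namespace Model

variable {β ρ}
variable {R : Type*} [Group R] (m : Model β ρ R)

theorem ext' {r r' : R} (h1 : m.θ r = m.θ r') (h2 : m.μ r = m.μ r') : r = r' := by
  have h := m.inj (r * r'⁻¹) (by rw [map_mul, map_inv, h1, mul_inv_cancel])
    (by rw [map_mul, map_inv, h2, mul_inv_cancel])
  exact mul_inv_eq_one.mp h

theorem ker_form (hnd : ∀ w : V, (∀ u, β u w + β w u = 0) → w = 0) (r : R) (hr : m.θ r = 1) :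
    ∃ w, ∃ a, ((m.μ r : (Matrix V V (ZMod 3))ˣ) : Matrix V V (ZMod 3)) = sg a • L β w := by
  obtain ⟨w, c, hc, h⟩ := eq_smul_L_of_comm β hnd (m.μ r : (Matrix V V (ZMod 3))ˣ)
    (Units.ne_zero _) (m.commR r) (fun u => by
      obtain ⟨a, ha⟩ := m.rel r u
      rw [hr, map_one, Module.End.one_apply] at ha
      exact ⟨sg a, ha⟩)
  obtain ⟨a, rfl⟩ := exists_sg_of_ne_zero c hc
  exact ⟨w, a, h⟩

theorem exists_ker (a : ZMod 2) (w : V) :
    ∃ r, m.θ r = 1 ∧ ((m.μ r : (Matrix V V (ZMod 3))ˣ) : Matrix V V (ZMod 3)) = sg a • L β w := by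
  obtain ⟨r, h1, h2⟩ := m.full 1 (lu β a w) (fun u => by
      show sg a • L β w * Rt β u = Rt β u * (sg a • L β w)
      rw [Matrix.smul_mul, Matrix.mul_smul, L_mul_Rt]) (fun u => ⟨β w u + β u w, by
      show sg a • L β w * L β u = sg (β w u + β u w) • (L β (ρ 1 u) * (sg a • L β w))
      rw [map_one, Module.End.one_apply, Matrix.smul_mul, Matrix.mul_smul, L_mul_L_comm β w u,
        smul_smul, smul_smul, mul_comm]⟩)
  exact ⟨r, h1, by rw [h2]; rfl⟩

theorem θ_surjective (hnd : ∀ w : V, (∀ u, β u w + β w u = 0) → w = 0)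
    (hV : (Fintype.card V : ZMod 3) ≠ 0) (hinv : ∀ k u, β (ρ k u) (ρ k u) = β u u) :
    Function.Surjective m.θ := by
  intro k
  have hbij : Function.Bijective (ρ k) := by
    refine Function.bijective_iff_has_inverse.mpr ⟨ρ k⁻¹, fun u => ?_, fun u => ?_⟩
    · rw [← Module.End.mul_apply, ← map_mul, inv_mul_cancel, map_one, Module.End.one_apply]
    · rw [← Module.End.mul_apply, ← map_mul, mul_inv_cancel, map_one, Module.End.one_apply]
  obtain ⟨g, g', hgg', hR, hL⟩ := exists_lift β hnd hV (ρ k) hbij (hinv k)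
  obtain ⟨r, hr, -⟩ := m.full k ⟨g, g', hgg', (mul_eq_one_comm.mp hgg')⟩ hR hL
  exact ⟨r, hr⟩

/-- The vector attached to an element of the kernel of `θ`. -/
noncomputable def vec (hnd : ∀ w : V, (∀ u, β u w + β w u = 0) → w = 0) (a : m.θ.ker) : V :=
  Classical.choose (m.ker_form hnd a.1 (MonoidHom.mem_ker.mp a.2))

theorem vec_spec (hnd : ∀ w : V, (∀ u, β u w + β w u = 0) → w = 0) (a : m.θ.ker) :
    ∃ s, ((m.μ a.1 : (Matrix V V (ZMod 3))ˣ) : Matrix V V (ZMod 3)) = sg s • L β (m.vec hnd a) :=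
  Classical.choose_spec (m.ker_form hnd a.1 (MonoidHom.mem_ker.mp a.2))

theorem vec_eq (hnd : ∀ w : V, (∀ u, β u w + β w u = 0) → w = 0) (a : m.θ.ker) (s : ZMod 2)
    (w : V)
    (h : ((m.μ a.1 : (Matrix V V (ZMod 3))ˣ) : Matrix V V (ZMod 3)) = sg s • L β w) :
    m.vec hnd a = w := by
  obtain ⟨s', hs'⟩ := m.vec_spec hnd a
  exact (smul_L_inj β (hs'.symm.trans h)).1

/-- The homomorphism from the kernel of `θ` onto `V`. -/
noncomputable def chi (hnd : ∀ w : V, (∀ u, β u w + β w u = 0) → w = 0) :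
    m.θ.ker →* Multiplicative V :=
  MonoidHom.mk' (fun a => Multiplicative.ofAdd (m.vec hnd a)) (by
    intro a b
    obtain ⟨s, hs⟩ := m.vec_spec hnd a
    obtain ⟨t, ht⟩ := m.vec_spec hnd b
    rw [← ofAdd_add]
    congr 1
    apply m.vec_eq hnd (a * b) (s + t + β (m.vec hnd a) (m.vec hnd b))
    rw [Subgroup.coe_mul, map_mul, Units.val_mul, hs, ht, Matrix.smul_mul, Matrix.mul_smul,
      L_mul_L, smul_smul, smul_smul, sg_add, sg_add])

theorem chi_apply (hnd : ∀ w : V, (∀ u, β u w + β w u = 0) → w = 0) (a : m.θ.ker) :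
    m.chi hnd a = Multiplicative.ofAdd (m.vec hnd a) := rfl

theorem chi_surjective (hnd : ∀ w : V, (∀ u, β u w + β w u = 0) → w = 0) :
    Function.Surjective (m.chi hnd) := by
  intro w
  obtain ⟨r, h1, h2⟩ := m.exists_ker 0 (Multiplicative.toAdd w)
  refine ⟨⟨r, MonoidHom.mem_ker.mpr h1⟩, ?_⟩
  rw [chi_apply, m.vec_eq hnd ⟨r, MonoidHom.mem_ker.mpr h1⟩ 0 _ h2]
  rfl

theorem mem_ker_chi_iff (hnd : ∀ w : V, (∀ u, β u w + β w u = 0) → w = 0) (a : m.θ.ker) :
    a ∈ (m.chi hnd).ker ↔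
      ∃ s, ((m.μ a.1 : (Matrix V V (ZMod 3))ˣ) : Matrix V V (ZMod 3)) = sg s • 1 := by
  rw [MonoidHom.mem_ker, chi_apply]
  constructor
  · intro h
    have h0 : m.vec hnd a = 0 := by simpa using h
    obtain ⟨s, hs⟩ := m.vec_spec hnd a
    rw [h0, L_zero] at hs
    exact ⟨s, hs⟩
  · rintro ⟨s, hs⟩
    rw [m.vec_eq hnd a s 0 (by rw [hs, L_zero])]
    rfl

theorem ker_chi_eq_center (hnd : ∀ w : V, (∀ u, β u w + β w u = 0) → w = 0) :
    (m.chi hnd).ker = Subgroup.center m.θ.ker := by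
  ext a
  rw [mem_ker_chi_iff, Subgroup.mem_center_iff]
  constructor
  · rintro ⟨s, hs⟩ b
    apply Subtype.ext
    apply m.ext'
    · rw [Subgroup.coe_mul, Subgroup.coe_mul, map_mul, map_mul, MonoidHom.mem_ker.mp a.2,
        MonoidHom.mem_ker.mp b.2]
    · apply Units.ext
      rw [Subgroup.coe_mul, Subgroup.coe_mul, map_mul, map_mul, Units.val_mul, Units.val_mul, hs,
        Matrix.smul_mul, Matrix.mul_smul, one_mul, mul_one]
  · intro hc
    obtain ⟨s, hs⟩ := m.vec_spec hnd a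
    have hw : m.vec hnd a = 0 := by
      apply hnd
      intro u
      obtain ⟨r, h1, h2⟩ := m.exists_ker 0 u
      have h3 := hc ⟨r, MonoidHom.mem_ker.mpr h1⟩
      have h4 : ((m.μ (r * a.1) : (Matrix V V (ZMod 3))ˣ) : Matrix V V (ZMod 3)) =
          ((m.μ (a.1 * r) : (Matrix V V (ZMod 3))ˣ) : Matrix V V (ZMod 3)) := by
        rw [show r * a.1 = a.1 * r from congrArg Subtype.val h3]
      rw [map_mul, map_mul, Units.val_mul, Units.val_mul, hs, h2, sg_zero, one_smul,
        Matrix.mul_smul, Matrix.smul_mul, L_mul_L, L_mul_L, add_comm (m.vec hnd a) u,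
        smul_smul, smul_smul, ← sg_add, ← sg_add] at h4
      have h5 := (smul_L_inj β h4).2
      have h6 : β u (m.vec hnd a) = β (m.vec hnd a) u := add_left_cancel h5
      rw [h6]
      exact CharTwo.add_self_eq_zero _
    rw [hw, L_zero] at hs
    exact ⟨s, hs⟩

theorem chi_conj (hnd : ∀ w : V, (∀ u, β u w + β w u = 0) → w = 0) (r : R) (a : m.θ.ker)
    (h : r * a.1 * r⁻¹ ∈ m.θ.ker) :
    m.chi hnd ⟨r * a.1 * r⁻¹, h⟩ =
      Multiplicative.ofAdd (ρ (m.θ r) (Multiplicative.toAdd (m.chi hnd a))) := by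
  obtain ⟨s, hs⟩ := m.vec_spec hnd a
  obtain ⟨t, ht⟩ := m.rel r (m.vec hnd a)
  rw [chi_apply, chi_apply, toAdd_ofAdd]
  congr 1
  apply m.vec_eq hnd _ (s + t)
  show ((m.μ (r * a.1 * r⁻¹) : (Matrix V V (ZMod 3))ˣ) : Matrix V V (ZMod 3)) = _
  rw [map_mul, map_mul, map_inv, Units.val_mul, Units.val_mul, hs, Matrix.mul_smul, ht,
    Matrix.smul_mul, Matrix.smul_mul, mul_assoc, Units.mul_inv, mul_one, smul_smul, sg_add]

theorem mu_sq (hnd : ∀ w : V, (∀ u, β u w + β w u = 0) → w = 0) (a : m.θ.ker) :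
    ((m.μ (a * a : m.θ.ker).1 : (Matrix V V (ZMod 3))ˣ) : Matrix V V (ZMod 3)) =
      sg (β (m.vec hnd a) (m.vec hnd a)) • 1 := by
  obtain ⟨s, hs⟩ := m.vec_spec hnd a
  rw [Subgroup.coe_mul, map_mul, Units.val_mul, hs, Matrix.smul_mul, Matrix.mul_smul,
    L_mul_self, smul_smul, smul_smul, sg_mul_self, one_mul]

theorem sq_iff (hnd : ∀ w : V, (∀ u, β u w + β w u = 0) → w = 0) (a : m.θ.ker) :
    a * a = 1 ↔ β (m.vec hnd a) (m.vec hnd a) = 0 := by
  have key := m.mu_sq hnd a
  constructor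
  · intro h
    rw [h, Subgroup.coe_one, map_one, Units.val_one] at key
    have h2 : sg 0 • L β (0 : V) = sg (β (m.vec hnd a) (m.vec hnd a)) • L β 0 := by
      rw [sg_zero, one_smul, L_zero]
      exact key
    exact (smul_L_inj β h2).2.symm
  · intro h
    rw [h, sg_zero, one_smul] at key
    apply Subtype.ext
    apply m.ext'
    · rw [Subgroup.coe_one, map_one]
      exact MonoidHom.mem_ker.mp (a * a).2
    · apply Units.ext
      rw [key, Subgroup.coe_one, map_one, Units.val_one]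

end Model

end Cfsg.Agent.Helper90.Clif
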