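import Mathlib

/-!
# Definitions for the minimal-degree descent (S2332)

Relative characters `ptr ρ P g = trace (ρ g ∘ P)` for a projection `P` commuting with a
subgroup, averages over subgroups, linear characters of a subgroup as functions on the
ambient group, stabiliser sets and commutator closures.
-/

set_option autoImplicit false

namespace Cfsg.Agent.Helper90.MD

variable {G : Type*} [Group G] {V : Type*} [AddCommGroup V] [Module ℂ V]

/-- The average of `ρ` over the subgroup `A` (for finite `A`: the projection onto the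
`A`-fixed vectors). -/
noncomputable def avg (ρ : Representation ℂ G V) (A : Subgroup G) : V →ₗ[ℂ] V :=
  (Nat.card A : ℂ)⁻¹ • ∑ᶠ x : A, ρ (x : G)

/-- Relative character: the trace of `ρ g` composed with `P`. -/
noncomputable def ptr (ρ : Representation ℂ G V) (P : V →ₗ[ℂ] V) (g : G) : ℂ :=
  LinearMap.trace ℂ V (ρ g ∘ₗ P)

/-- `P` is a projection commuting with the action of the subgroup `N`. -/
def IsProjFor (ρ : Representation ℂ G V) (N : Subgroup G) (P : V →ₗ[ℂ] V) : Prop :=
  P ∘ₗ P = P ∧ ∀ n ∈ N, ρ n ∘ₗ P = P ∘ₗ ρ n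

/-- `g` normalises the subgroup `A`. -/
def NormBy (g : G) (A : Subgroup G) : Prop :=
  (∀ x ∈ A, g * x * g⁻¹ ∈ A) ∧ ∀ x ∈ A, g⁻¹ * x * g ∈ A

/-- The relative character is constant `τ` on `A ∖ {1}` and every nontrivial linear character
of `A` has multiplicity one (`ptr 1 - τ = |A|`). -/
def MultOne (ρ : Representation ℂ G V) (P : V →ₗ[ℂ] V) (A : Subgroup G) (τ : ℂ) : Prop :=
  (∀ x ∈ A, x ≠ 1 → ptr ρ P x = τ) ∧ ptr ρ P 1 - τ = (Nat.card A : ℂ)

/-- `lam`, restricted to `A`, is a linear character of `A`. -/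
def IsCharOn (A : Subgroup G) (lam : G → ℂ) : Prop :=
  lam 1 = 1 ∧ ∀ x ∈ A, ∀ y ∈ A, lam (x * y) = lam x * lam y

/-- The elements of `N` normalising `A` and fixing the character `lam` of `A`. -/
def stabSet (N A : Subgroup G) (lam : G → ℂ) : Set G :=
  {s | s ∈ N ∧ NormBy s A ∧ ∀ x ∈ A, lam (s * x * s⁻¹) = lam x}

/-- The subgroup generated by the commutators of elements of the set `S`. -/
def commSet (S : Set G) : Subgroup G :=
  Subgroup.closure {c | ∃ s₁ ∈ S, ∃ s₂ ∈ S, c = s₁ * s₂ * s₁⁻¹ * s₂⁻¹}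

/-- The number of elements of `A` commuting with `g`. -/
noncomputable def cent (A : Subgroup G) (g : G) : ℕ :=
  Nat.card {x : G // x ∈ A ∧ g * x = x * g}

/-- Property (T) for `g` acting on the characters of `A` that are trivial on `D`: for every
such nontrivial character, `g` is a product of commutators of elements of `N` normalising `A`
and fixing the character. -/
def PropT (N A D : Subgroup G) (g : G) : Prop :=
  ∀ lam : G → ℂ, IsCharOn A lam → (∃ x ∈ A, lam x ≠ 1) → (∀ x ∈ D, lam x = 1) →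
    g ∈ commSet (stabSet N A lam)

/-- The subgroup `[A, g]` generated by the commutators `y g y⁻¹ g⁻¹`, `y ∈ A`. -/
def bsub (A : Subgroup G) (g : G) : Subgroup G :=
  Subgroup.closure {c | ∃ y ∈ A, c = y * g * y⁻¹ * g⁻¹}

/-- The centraliser of `g` in `A`. -/
def csub (A : Subgroup G) (g : G) : Subgroup G where
  carrier := {x | x ∈ A ∧ g * x = x * g}
  mul_mem' := by
    rintro x y ⟨hx, hx'⟩ ⟨hy, hy'⟩
    refine ⟨A.mul_mem hx hy, ?_⟩
    rw [← mul_assoc, hx', mul_assoc, hy', mul_assoc]
  one_mem' := ⟨A.one_mem, by rw [mul_one, one_mul]⟩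
  inv_mem' := by
    rintro x ⟨hx, hx'⟩
    refine ⟨A.inv_mem hx, ?_⟩
    have h : x⁻¹ * (g * x) * x⁻¹ = x⁻¹ * (x * g) * x⁻¹ := by rw [hx']
    simpa [mul_assoc] using h.symm

/-- The subgroup of elements normalising `A`. -/
def normSub (A : Subgroup G) : Subgroup G where
  carrier := {g | NormBy g A}
  mul_mem' := by
    rintro g h ⟨hg1, hg2⟩ ⟨hh1, hh2⟩
    refine ⟨fun x hx => ?_, fun x hx => ?_⟩
    · have := hg1 _ (hh1 x hx)
      simpa [mul_assoc] using this
    · have := hh2 _ (hg2 x hx)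
      simpa [mul_assoc] using this
  one_mem' := ⟨fun x hx => by simpa using hx, fun x hx => by simpa using hx⟩
  inv_mem' := by
    rintro g ⟨hg1, hg2⟩
    refine ⟨fun x hx => ?_, fun x hx => ?_⟩
    · simpa using hg2 x hx
    · simpa using hg1 x hx

theorem mem_normSub {A : Subgroup G} {g : G} : g ∈ normSub A ↔ NormBy g A := Iff.rfl

theorem mem_csub {A : Subgroup G} {g x : G} : x ∈ csub A g ↔ x ∈ A ∧ g * x = x * g := Iff.rfl

end Cfsg.Agent.Helper90.MD
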