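import Mathlib
import Cfsg.Agent.Helper90.MDDefs
import Cfsg.Agent.Helper60.SLExt

/-!
# Transvection subgroups of `SL(V)` for the minimal-degree descent (S2332)
-/

set_option autoImplicit false

namespace Cfsg.Agent.Helper90.MD

open Module Cfsg.Agent.Helper60.MinIdx

variable {F V0 : Type*} [Field F] [AddCommGroup V0] [Module F V0]

/-- The transvections `tv φ a`, `a ∈ ker φ` (all transvections with axis `ker φ`). -/
def Qsub (φ : Dual F V0) : Subgroup (SpecialLinearGroup F V0) where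
  carrier := {g | ∃ a, φ a = 0 ∧ g = tv φ a}
  mul_mem' := by
    rintro _ _ ⟨a, ha, rfl⟩ ⟨b, hb, rfl⟩
    exact ⟨a + b, by rw [map_add, ha, hb, add_zero], tv_add_left ha hb⟩
  one_mem' := ⟨0, map_zero φ, (tv_zero_right φ).symm⟩
  inv_mem' := by
    rintro _ ⟨a, ha, rfl⟩
    exact ⟨-a, by rw [map_neg, ha, neg_zero], tv_inv φ a⟩

theorem mem_Qsub {φ : Dual F V0} {g : SpecialLinearGroup F V0} :
    g ∈ Qsub φ ↔ ∃ a, φ a = 0 ∧ g = tv φ a := Iff.rfl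

/-- The transvections `tv ψ b`, `b ∈ ker φ ∩ ker ψ`. -/
def Xsub (φ ψ : Dual F V0) : Subgroup (SpecialLinearGroup F V0) where
  carrier := {g | ∃ b, φ b = 0 ∧ ψ b = 0 ∧ g = tv ψ b}
  mul_mem' := by
    rintro _ _ ⟨a, ha, ha', rfl⟩ ⟨b, hb, hb', rfl⟩
    exact ⟨a + b, by rw [map_add, ha, hb, add_zero], by rw [map_add, ha', hb', add_zero],
      tv_add_left ha' hb'⟩
  one_mem' := ⟨0, map_zero φ, map_zero ψ, (tv_zero_right ψ).symm⟩
  inv_mem' := by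
    rintro _ ⟨a, ha, ha', rfl⟩
    exact ⟨-a, by rw [map_neg, ha, neg_zero], by rw [map_neg, ha', neg_zero], tv_inv ψ a⟩

theorem mem_Xsub {φ ψ : Dual F V0} {g : SpecialLinearGroup F V0} :
    g ∈ Xsub φ ψ ↔ ∃ b, φ b = 0 ∧ ψ b = 0 ∧ g = tv ψ b := Iff.rfl

/-- The transvections `tv ψ' b`, `b ∈ ker φ ∩ ker ψ ∩ ker ψ'`. -/
def Ysub (φ ψ ψ' : Dual F V0) : Subgroup (SpecialLinearGroup F V0) where
  carrier := {g | ∃ b, φ b = 0 ∧ ψ b = 0 ∧ ψ' b = 0 ∧ g = tv ψ' b}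
  mul_mem' := by
    rintro _ _ ⟨a, ha, ha', ha'', rfl⟩ ⟨b, hb, hb', hb'', rfl⟩
    exact ⟨a + b, by rw [map_add, ha, hb, add_zero], by rw [map_add, ha', hb', add_zero],
      by rw [map_add, ha'', hb'', add_zero], tv_add_left ha'' hb''⟩
  one_mem' := ⟨0, map_zero φ, map_zero ψ, map_zero ψ', (tv_zero_right ψ').symm⟩
  inv_mem' := by
    rintro _ ⟨a, ha, ha', ha'', rfl⟩
    exact ⟨-a, by rw [map_neg, ha, neg_zero], by rw [map_neg, ha', neg_zero],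
      by rw [map_neg, ha'', neg_zero], tv_inv ψ' a⟩

theorem mem_Ysub {φ ψ ψ' : Dual F V0} {g : SpecialLinearGroup F V0} :
    g ∈ Ysub φ ψ ψ' ↔ ∃ b, φ b = 0 ∧ ψ b = 0 ∧ ψ' b = 0 ∧ g = tv ψ' b := Iff.rfl

end Cfsg.Agent.Helper90.MD
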