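import Mathlib
import Cfsg.Agent.Helper90.MDSLDefs
import Cfsg.Agent.Helper60.SLFisher
import Cfsg.Agent.Helper67.MDASM2
import Cfsg.Agent.Helper67.MDMSLIN
import Cfsg.Agent.Helper66.MDMSNORM
import Cfsg.Agent.Helper65.MDIHAPP
import Cfsg.Agent.Helper91.MDAVG
import Cfsg.Agent.Helper3.MDMSIOTA

/-!
# CALL S2332, PIECE ASM4: the general induction step
-/

set_option autoImplicit false

universe u

namespace Cfsg.Agent.Helper90.MD

open Module Cfsg.Agent.Helper60.MinIdx

/-- In a linearly independent pair the first covector is nonzero. -/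
theorem md_li_fst_ne {F V0 : Type*} [Field F] [AddCommGroup V0] [Module F V0]
    {φ ψ : Dual F V0} (hli : LinearIndependent F ![φ, ψ]) : φ ≠ 0 := by
  have := hli.ne_zero 0
  simpa using this

/-- In a linearly independent pair the second covector is nonzero. -/
theorem md_li_snd_ne {F V0 : Type*} [Field F] [AddCommGroup V0] [Module F V0]
    {φ ψ : Dual F V0} (hli : LinearIndependent F ![φ, ψ]) : ψ ≠ 0 := by
  have := hli.ne_zero 1
  simpa using this

theorem asm_gen_step {F : Type u} [Field F] [Finite F] {V0 : Type u} [AddCommGroup V0]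
    [Module F V0] [Module.Finite F V0] {W : Type} [AddCommGroup W] [Module ℂ W]
    [FiniteDimensional ℂ W] (hn : 3 ≤ finrank F V0)
    (ρ : Representation ℂ (SpecialLinearGroup F V0) W) (a : ℕ)
    (hd : finrank ℂ W = a + Nat.card F ^ (finrank F V0 - 1) - 1)
    (hχ : ∀ (f : Dual F V0) (c : V0), f c = 0 → f ≠ 0 → c ≠ 0 →
      ρ.character (tv f c) = (a : ℂ) - 1)
    (H1 : ∀ (φ ψ : Dual F V0) (b : V0), LinearIndependent F ![φ, ψ] → φ b = 0 → ψ b = 0 →
      b ≠ 0 → PropT ⊤ (Qsub φ) (bsub (Qsub φ) (tv ψ b)) (tv ψ b))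
    (b : ℕ)
    (IH : ∀ (K : Type u) [AddCommGroup K] [Module F K] [Module.Finite F K],
      finrank F K + 1 = finrank F V0 →
      ∀ (W' : Type) [AddCommGroup W'] [Module ℂ W'] [FiniteDimensional ℂ W']
        (σ : Representation ℂ (SpecialLinearGroup F K) W'), σ.IsIrreducible → (∃ g, σ g ≠ 1) →
        b ≤ finrank ℂ W') :
    b ≤ a := by
  haveI : Finite V0 := Module.finite_of_finite F
  obtain ⟨φ, ψ0, b0, hli0, -, -, -⟩ := Helper67.exists_cov2 (F := F) (V0 := V0) hn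
  have hφ : φ ≠ 0 := md_li_fst_ne hli0
  obtain ⟨ι, γ, ψ, c, hι, hli, hφc, hψc, hc, hιγ⟩ := Helper3.exists_iota hn hφ
  obtain ⟨-, hP, h1⟩ := Helper67.asm_level1 ρ a hd hχ hφ
  have hψ : ψ ≠ 0 := md_li_snd_ne hli
  have hg := Helper67.asm_level1_gen ρ a hd hχ hφ (tv ψ c)
    (Helper66.tv_normBy_qsub hφc hψc) (H1 φ ψ c hli hφc hψc hc)
  rw [hχ ψ c hψc hψ hc, Helper66.cent_qsub_tv hli hφc hψc hc] at hg
  have hq : 2 ≤ Nat.card F := Finite.one_lt_card
  have hQ : Nat.card F ^ (finrank F V0 - 2) ≠ 0 := pow_ne_zero _ (by omega)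
  have hne : ptr ρ (LinearMap.id ∘ₗ avg ρ (Qsub φ)) (ι γ) ≠
      ptr ρ (LinearMap.id ∘ₗ avg ρ (Qsub φ)) 1 := by
    rw [hιγ, hg, h1]
    intro h
    have h0 : ((Nat.card F ^ (finrank F V0 - 2) : ℕ) : ℂ) = 0 := by linear_combination -h
    exact hQ (Nat.cast_eq_zero.mp h0)
  have hker : finrank F (LinearMap.ker φ) + 1 = finrank F V0 :=
    Module.Dual.finrank_ker_add_one_of_ne_zero hφ
  haveI : Finite (LinearMap.ker φ) := Module.finite_of_finite F
  have hb := Helper65.ih_app ρ (normSub (Qsub φ)) _ hP ι hι b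
    (IH (LinearMap.ker φ) hker) γ hne
  have h2 := Helper91.ptr_one_nat ρ (normSub (Qsub φ)) _ hP
  rw [h1] at h2
  have h3 : a = finrank ℂ (LinearMap.range (LinearMap.id ∘ₗ avg ρ (Qsub φ))) := by
    exact_mod_cast h2
  omega

end Cfsg.Agent.Helper90.MD
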