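import Mathlib
import Cfsg.Agent.Helper90.MDSLDefs
import Cfsg.Agent.Helper90.MDASM4
import Cfsg.Agent.Helper42.MDAR2
import Cfsg.Agent.Helper42.MDAR3
import Cfsg.Agent.Helper42.MDARGEN
import Cfsg.Agent.Helper33.MDMST5
import Cfsg.Agent.Helper33.MDMST3
import Cfsg.Agent.Helper65.MDMSE5
import Cfsg.Agent.Helper66.MDMSNORM
import Cfsg.Agent.Helper60.MDMSU
import Cfsg.Agent.Helper67.MDASM1
import Cfsg.Agent.Helper67.MDASM3
import Cfsg.Agent.Helper33.MDMST4
import Cfsg.Agent.Helper60.MDMSE4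
import Cfsg.Agent.Helper64.MDASM5

/-!
# S2332: the minimal degree of `SL_n(q)`, `n ≥ 3` - the main induction
-/

set_option autoImplicit false

universe u

namespace Cfsg.Agent.Helper90.MD

open Module Cfsg.Agent.Helper60.MinIdx

/-- Every nontrivial irreducible complex representation of `SL(V0)`, `dim V0 = n`, has degree
at least `(q^n - q)/(q - 1)`. -/
def MinDeg (F : Type u) [Field F] [Finite F] (n : ℕ) : Prop :=
  ∀ (V0 : Type u) [AddCommGroup V0] [Module F V0] [Module.Finite F V0], finrank F V0 = n →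
    ∀ (W : Type) [AddCommGroup W] [Module ℂ W] [FiniteDimensional ℂ W]
      (ρ : Representation ℂ (SpecialLinearGroup F V0) W), ρ.IsIrreducible → (∃ g, ρ g ≠ 1) →
      (Nat.card F ^ n - Nat.card F) / (Nat.card F - 1) ≤ finrank ℂ W

theorem sq_sub_one_div (q : ℕ) (hq : 2 ≤ q) : (q ^ 2 - 1) / (q - 1) = q + 1 := by
  obtain ⟨k, rfl⟩ : ∃ k, q = k + 2 := ⟨q - 2, by omega⟩
  have h : (k + 2) ^ 2 - 1 = (k + 2 - 1) * (k + 2 + 1) := by
    have h1 : k + 2 - 1 = k + 1 := by omega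
    rw [h1]
    have h2 : (k + 2) ^ 2 = (k + 1) * (k + 2 + 1) + 1 := by ring
    omega
  rw [h, Nat.mul_div_cancel_left _ (by omega)]

theorem minDeg_main {F : Type u} [Field F] [Finite F] (n : ℕ) (hn : 3 ≤ n)
    (hex : ¬ (n = 3 ∧ Nat.card F = 2) ∧ ¬ (n = 3 ∧ Nat.card F = 4) ∧
      ¬ (n = 4 ∧ Nat.card F = 2) ∧ ¬ (n = 4 ∧ Nat.card F = 3)) : MinDeg F n := by
  induction n using Nat.strong_induction_on with
  | _ n ih =>
  intro V0 _ _ _ hV0 W _ _ _ ρ hirr hnt
  have hq : 2 ≤ Nat.card F := Finite.one_lt_card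
  rcases Helper67.asm_common (by omega) ρ hirr hnt with h | ⟨a, hd, hχ, hdvd⟩
  · rw [hV0] at h; exact h
  · rw [hd, hV0]
    apply Helper42.arith_fin _ _ _ hq (by omega)
    rw [hV0] at hdvd
    by_cases h3 : n = 3
    · -- base case
      subst h3
      have hq2 : Nat.card F ≠ 2 := fun h => hex.1 ⟨rfl, h⟩
      have hq4 : Nat.card F ≠ 4 := fun h => hex.2.1 ⟨rfl, h⟩
      have h1 := Helper67.asm_one_level (by omega) ρ a hd hχ
        (fun φ ψ b hli h1 h2 h3 => Helper33.propT_three hV0 hq2 hq4 hli h1 h2 h3)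
      rw [hV0] at h1
      have hpp : IsPrimePow (Nat.card F) := by
        haveI := Fintype.ofFinite F
        rw [Nat.card_eq_fintype_card]
        exact FiniteField.isPrimePow_card F
      have h2 := Helper42.arith_three (Nat.card F) a hpp hq2 hq4 (by simpa using h1) hdvd
      rw [show 3 - 1 = 2 from rfl, sq_sub_one_div _ hq]
      exact h2
    · by_cases hsp : (n = 4 ∧ Nat.card F = 4) ∨ (n = 5 ∧ Nat.card F = 2) ∨
          (n = 5 ∧ Nat.card F = 3)
      · -- the three special cases: two levels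
        have H1 : ∀ (φ ψ : Dual F V0) (b : V0), LinearIndependent F ![φ, ψ] → φ b = 0 →
            ψ b = 0 → b ≠ 0 → PropT ⊤ (Qsub φ) (bsub (Qsub φ) (tv ψ b)) (tv ψ b) := by
          intro φ ψ b hli h1 h2 h3
          rcases hsp with ⟨h4, hq4⟩ | ⟨h5, _⟩ | ⟨h5, _⟩
          · exact Helper33.propT_four (by omega) (by omega) hli h1 h2 h3
          · exact Helper33.propT_ge5 (by omega) hli h1 h2 h3
          · exact Helper33.propT_ge5 (by omega) hli h1 h2 h3
        have H2 : ∀ (φ ψ ψ' : Dual F V0) (b : V0), LinearIndependent F ![φ, ψ, ψ'] → φ b = 0 →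
            ψ b = 0 → ψ' b = 0 → b ≠ 0 →
            PropT (normSub (Qsub φ)) (Xsub φ ψ) (csub (Xsub φ ψ) (tv ψ' b)) (tv ψ' b) := by
          intro φ ψ ψ' b hli h1 h2 h2' h3
          rcases hsp with ⟨h4, hq4⟩ | ⟨h5, _⟩ | ⟨h5, _⟩
          · exact Helper60.propT1_four (by omega) (by omega) hli h1 h2 h2' h3
          · exact Helper65.propT1_ge5 (by omega) hli h1 h2 h2' h3
          · exact Helper65.propT1_ge5 (by omega) hli h1 h2 h2' h3
        have H3 : ∀ (φ ψ ψ' : Dual F V0) (b : V0), LinearIndependent F ![φ, ψ, ψ'] → φ b = 0 →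
            ψ b = 0 → ψ' b = 0 → b ≠ 0 →
            ∀ x ∈ csub (Xsub φ ψ) (tv ψ' b), x ∉ bsub (Xsub φ ψ) (tv ψ' b) →
              x ∈ Qsub ψ ∧ x ∉ bsub (Qsub ψ) (tv ψ' b) ∧
              cent (Qsub φ) (x * tv ψ' b) = Nat.card F ^ (finrank F V0 - 3) ∧
              PropT ⊤ (Qsub φ) (bsub (Qsub φ) (x * tv ψ' b)) (x * tv ψ' b) := by
          intro φ ψ ψ' b hli h1 h2 h2' h3 x hx hxB
          rcases hsp with ⟨h4, hq4⟩ | ⟨h5, _⟩ | ⟨h5, _⟩
          · exact absurd (Helper66.csub_le_bsub_four (by omega) hli h1 h2 h2' h3 hx) hxB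
          · exact Helper60.level2_u (by omega) hli h1 h2 h2' h3 x hx hxB
          · exact Helper60.level2_u (by omega) hli h1 h2 h2' h3 x hx hxB
        have h2 := Helper64.asm_two_level (by omega) ρ a hd hχ H1 H2 H3
        rw [hV0] at h2
        exact Helper42.arith_special (Nat.card F) n a hsp h2 hdvd
      · -- general step
        have hn4 : 4 ≤ n := by omega
        have H1 : ∀ (φ ψ : Dual F V0) (b : V0), LinearIndependent F ![φ, ψ] → φ b = 0 →
            ψ b = 0 → b ≠ 0 → PropT ⊤ (Qsub φ) (bsub (Qsub φ) (tv ψ b)) (tv ψ b) := by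
          intro φ ψ b hli h1 h2 h3
          by_cases h4 : n = 4
          · have hq5 : 4 ≤ Nat.card F := by
              by_contra hlt
              have : Nat.card F = 2 ∨ Nat.card F = 3 := by omega
              rcases this with h | h
              · exact hex.2.2.1 ⟨h4, h⟩
              · exact hex.2.2.2 ⟨h4, h⟩
            exact Helper33.propT_four (by omega) hq5 hli h1 h2 h3
          · exact Helper33.propT_ge5 (by omega) hli h1 h2 h3
        have hex' : ¬ (n - 1 = 3 ∧ Nat.card F = 2) ∧ ¬ (n - 1 = 3 ∧ Nat.card F = 4) ∧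
            ¬ (n - 1 = 4 ∧ Nat.card F = 2) ∧ ¬ (n - 1 = 4 ∧ Nat.card F = 3) := by
          refine ⟨?_, ?_, ?_, ?_⟩
          · rintro ⟨h, hq'⟩; exact hex.2.2.1 ⟨by omega, hq'⟩
          · rintro ⟨h, hq'⟩; exact hsp (Or.inl ⟨by omega, hq'⟩)
          · rintro ⟨h, hq'⟩; exact hsp (Or.inr (Or.inl ⟨by omega, hq'⟩))
          · rintro ⟨h, hq'⟩; exact hsp (Or.inr (Or.inr ⟨by omega, hq'⟩))
        have hIH := ih (n - 1) (by omega) (by omega) hex'
        have h2 := asm_gen_step (by omega) ρ a hd hχ H1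
          ((Nat.card F ^ (n - 1) - Nat.card F) / (Nat.card F - 1))
          (fun K _ _ _ hK W' _ _ _ σ hσ hnt' => hIH K (by omega) W' σ hσ hnt')
        exact Helper42.arith_gen (Nat.card F) n a hq hn4 h2 hdvd

end Cfsg.Agent.Helper90.MD
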